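import Mathlib.FieldTheory.Minpoly.IsIntegrallyClosed
import Mathlib.Algebra.Polynomial.Splits
import Mathlib.Data.ZMod.Basic
import Mathlib.Algebra.Field.ZMod
import Mathlib.Data.Complex.Basic
import Mathlib.Tactic.NormNum.Prime
import Mathlib.RingTheory.Polynomial.RationalRoot
import Mathlib.RingTheory.Int.Basic
import Cfsg.Agent.Prune
set_option linter.all false
prune_inst 0x7f00000000000000000000000000000000000000000000000000000000000000000000000000000000000000000000000000000000000000000000000000000000000000000000000000000000000000003fffffffffffffffffffffffffffbeffbdffffffff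
open scoped Cfsg.Agent.FastGrp

/-!
# MO/Mx: a certificate for the irreducibility of a monic integral polynomial (helper45)

`tm l` is the monic polynomial with the lower coefficients `l`.  It splits modulo the prime `161281` with the roots `rs`; a monic
factor `m` has `m(n) ∣ f(n)`, and `m(n)` is congruent to a product over a part of the roots.
-/

set_option autoImplicit false

namespace Cfsg.Agent.MO.Mx

open Polynomial

/-- the value of the monic polynomial with the lower coefficients `l` -/
def ev {K : Type} [CommRing K] (l : List ℤ) (s : K) : K := List.rec 1 (fun c _ ih => (c : K) + s * ih) l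

/-- the monic polynomial with the lower coefficients `l` -/
noncomputable def tm (l : List ℤ) : ℤ[X] := List.rec 1 (fun c _ ih => C c + X * ih) l

theorem ev_cons {K : Type} [CommRing K] (c : ℤ) (l : List ℤ) (s : K) : ev (c :: l) s = c + s * ev l s := rfl

theorem tm_spec (l : List ℤ) : (tm l).Monic ∧ (tm l).natDegree = l.length := by
  induction l with
  | nil => exact ⟨monic_one, natDegree_one⟩
  | cons c l ih =>
    have h1 : (X * tm l).natDegree = l.length + 1 := by rw [monic_X.natDegree_mul ih.1, natDegree_X, ih.2, add_comm]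
    have h2 : (C c).degree < (X * tm l).degree :=
      degree_C_le.trans_lt (natDegree_pos_iff_degree_pos.1 (by omega))
    exact ⟨(monic_X.mul ih.1).add_of_right h2, (natDegree_C_add).trans h1⟩

theorem aeval_tm {K : Type} [CommRing K] (l : List ℤ) (s : K) : aeval s (tm l) = ev l s := by
  induction l with
  | nil => exact map_one _
  | cons c l ih =>
    show aeval s (C c + X * tm l) = _
    rw [map_add, map_mul, aeval_X, ih, aeval_C, ev_cons, eq_intCast]

theorem ev_cast {K : Type} [CommRing K] (l : List ℤ) (n : ℤ) : ((ev l n : ℤ) : K) = ev l (n : K) := by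
  induction l with
  | nil => exact Int.cast_one
  | cons c l ih => rw [ev_cons, ev_cons, Int.cast_add, Int.cast_mul, ih, Int.cast_id]

instance instFactQ : Fact (Nat.Prime 161281) := ⟨by norm_num⟩

/-- the certificate -/
def irrOK (l rs : List ℤ) (n : ℤ) : Bool :=
  decide (rs.length = l.length) && decide ((rs.map (· % 161281)).Nodup) && rs.all (fun r => decide (ev l r % 161281 = 0)) &&
    rs.sublists.all fun T => decide (T.length = 0) || decide (T.length = rs.length) ||
      (fun B p : ℤ => decide (0 < B) && decide (B < p) && decide (p + B < 161281)) |ev l n| ((T.map (n - ·)).prod % 161281)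

/-- `tm l` is the minimal polynomial of its roots -/
theorem minpoly_eq {l rs : List ℤ} {n : ℤ} (H : irrOK l rs n = true) {s : ℂ} (hs : ev l s = 0) : minpoly ℤ s = tm l := by
  simp only [irrOK, Bool.and_eq_true, Bool.or_eq_true, decide_eq_true_eq, List.all_eq_true, List.mem_sublists] at H
  obtain ⟨⟨⟨h1, h2⟩, h3⟩, h4⟩ := H
  obtain ⟨hm, hd⟩ := tm_spec l
  have hi : IsIntegral ℤ s := ⟨tm l, hm, (aeval_tm l s).trans hs⟩
  have h5 := minpoly.isIntegrallyClosed_dvd hi ((aeval_tm l s).trans hs)
  have h6 := minpoly.monic hi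
  have h7 := minpoly.natDegree_pos hi
  generalize minpoly ℤ s = m at h5 h6 h7
  let φ := Int.castRingHom (ZMod 161281)
  have h8 : ((rs.map φ : List _) : Multiset (ZMod 161281)) ≤ ((tm l).map φ).roots := by
    refine (Multiset.le_iff_subset (Multiset.coe_nodup.2 ?_)).2 fun a ha => ?_
    · refine List.Nodup.map_on (fun a ha b hb e => List.inj_on_of_nodup_map h2 ha hb ?_) (List.Nodup.of_map _ h2)
      exact (ZMod.intCast_eq_intCast_iff' a b 161281).1 e
    · obtain ⟨r, hr, rfl⟩ := List.mem_map.1 (Multiset.mem_coe.1 ha)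
      rw [mem_roots (hm.map φ).ne_zero, IsRoot, eval_map, eval₂_at_apply, ← coe_aeval_eq_eval, aeval_tm]
      exact (ZMod.intCast_zmod_eq_zero_iff_dvd _ 161281).2 (Int.dvd_of_emod_eq_zero (h3 r hr))
  have h9 := Multiset.eq_of_le_of_card_le h8 ((card_roots' _).trans (by simp [hm.natDegree_map, hd, h1]))
  have h10 : ((tm l).map φ).Splits := splits_iff_card_roots.2 (by rw [← h9]; simp [hm.natDegree_map, hd, h1])
  have h11 := h10.of_dvd (hm.map φ).ne_zero (Polynomial.map_dvd φ h5)
  have h12 := roots.le_of_dvd (hm.map φ).ne_zero (Polynomial.map_dvd φ h5)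
  have h13 := splits_iff_card_roots.1 h11
  have h14 := h11.eval_eq_prod_roots_of_monic (h6.map φ) (φ n)
  rw [← h9] at h12
  generalize (m.map φ).roots = Z at h12 h13 h14
  obtain ⟨L, rfl⟩ := Quot.exists_rep Z
  obtain ⟨L', e, h15⟩ := Multiset.coe_le.1 h12
  obtain ⟨T, hT, rfl⟩ := List.sublist_map_iff.1 h15
  rw [show Quot.mk _ L = ((T.map φ : List _) : Multiset (ZMod 161281)) from Multiset.coe_eq_coe.2 e.symm] at h13 h14
  rw [Multiset.coe_card, List.length_map, h6.natDegree_map] at h13
  rcases h4 T hT with (h | h) | ⟨⟨a1, a2⟩, a3⟩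
  · omega
  · exact eq_of_monic_of_dvd_of_natDegree_le h6 hm h5 (by omega) |>.symm
  · exfalso
    have h16 : φ (m.eval n) = φ (T.map (n - ·)).prod := by
      rw [← eval₂_at_apply, ← eval_map, h14, Multiset.map_coe, Multiset.prod_coe, map_list_prod, List.map_map, List.map_map]
      exact congrArg List.prod (List.map_congr_left fun a _ => (map_sub φ n a).symm)
    have h17 := (ZMod.intCast_eq_intCast_iff' _ _ 161281).1 h16
    have h18 : m.eval n ∣ ev l n := by
      rw [← aeval_tm, coe_aeval_eq_eval]
      exact eval_dvd h5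
    have h19 := abs_le.1 (Int.le_of_dvd a1 ((abs_dvd_abs _ _).2 h18))
    push_cast at h17
    omega

/-- the powers below the degree are independent -/
theorem eq_zero_of_lt {l rs : List ℤ} {n : ℤ} (H : irrOK l rs n = true) {s : ℂ} (hs : ev l s = 0) {p : ℤ[X]}
    (hp : aeval s p = 0) (hd : p.degree < l.length) : p = 0 := by
  have hi : IsIntegral ℤ s := ⟨tm l, (tm_spec l).1, (aeval_tm l s).trans hs⟩
  have h1 := minpoly.isIntegrallyClosed_dvd hi hp
  rw [minpoly_eq H hs] at h1
  exact eq_zero_of_dvd_of_degree_lt h1 (by rwa [degree_eq_natDegree (tm_spec l).1.ne_zero, (tm_spec l).2])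

/-- a relation holds for the roots modulo the prime -/
theorem dvd_of_aeval {l rs : List ℤ} {n : ℤ} (H : irrOK l rs n = true) {s : ℂ} (hs : ev l s = 0) {p : ℤ[X]}
    (hp : aeval s p = 0) {r : ℤ} (hr : r ∈ rs) : (161281 : ℤ) ∣ p.eval r := by
  have hi : IsIntegral ℤ s := ⟨tm l, (tm_spec l).1, (aeval_tm l s).trans hs⟩
  have h1 := minpoly.isIntegrallyClosed_dvd hi hp
  rw [minpoly_eq H hs] at h1
  simp only [irrOK, Bool.and_eq_true, decide_eq_true_eq, List.all_eq_true] at H
  refine (Int.dvd_of_emod_eq_zero (H.1.2 r hr)).trans ?_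
  rw [← aeval_tm, coe_aeval_eq_eval]
  exact eval_dvd h1

example := And.intro @ev.eq_1 (And.intro @tm.eq_1 @irrOK.eq_1)

end Cfsg.Agent.MO.Mx

private theorem dce_08f583f09c65 : _root_.True := by
  try have : _root_.True := by simp only [_root_.Cfsg.Agent.MO.Mx.irrOK.eq_1]
  exact _root_.True.intro
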